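import Mathlib
import Cfsg.Agent.FewRels.Carmichael

/-!
A homomorphism from the alternating group of degree seven given by Moore's generators.
-/

set_option autoImplicit false

namespace CfsgLib.AltSevenRecog

open Equiv

variable {G : Type*} [Group G]

/-- Inversion followed by conjugation with an involution. -/
def twist (s x : G) : G := s * x⁻¹ * s

theorem twist_twist {s : G} (hs : s * s = 1) (x : G) : twist s (twist s x) = x := by
  have hi : s⁻¹ = s := inv_eq_of_mul_eq_one_right hs
  simp only [twist, mul_inv_rev, inv_inv, hi]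
  calc s * (s * (x * s)) * s = (s * s) * x * (s * s) := by group
    _ = x := by rw [hs]; group

theorem twist_rel {s : G} (hs : s * s = 1) {x y : G} (h : (x * y) ^ 2 = 1) : (twist s x * twist s y) ^ 2 = 1 := by
  have h' : (y * x) ^ 2 = 1 := by
    rw [show (y * x) ^ 2 = y * (x * y) ^ 2 * y⁻¹ by rw [pow_two, pow_two]; group, h]; group
  calc (twist s x * twist s y) ^ 2
      = s * (x⁻¹ * (s * s) * y⁻¹ * (s * s) * x⁻¹ * (s * s) * y⁻¹) * s := by
        rw [pow_two]; simp only [twist]; group
    _ = s * ((y * x) ^ 2)⁻¹ * s := by rw [hs, pow_two]; group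
    _ = 1 := by rw [h']; simpa using hs

theorem twist_cube {s : G} (hs : s * s = 1) {x : G} (h : x ^ 3 = 1) : twist s x ^ 3 = 1 := by
  calc twist s x ^ 3 = s * (x⁻¹ * (s * s) * x⁻¹ * (s * s) * x⁻¹) * s := by
        rw [pow_succ, pow_two]; simp only [twist]; group
    _ = s * (x ^ 3)⁻¹ * s := by rw [hs, pow_succ, pow_two]; group
    _ = 1 := by rw [h]; simpa using hs

theorem braid_of {s t : G} (hs : s * s = 1) (ht : t * t = 1) (h : (s * t) ^ 3 = 1) : s * t * s = t * s * t := by
  have hi : s⁻¹ = s := inv_eq_of_mul_eq_one_right hs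
  have hi' : t⁻¹ = t := inv_eq_of_mul_eq_one_right ht
  rw [pow_succ, pow_two] at h
  calc s * t * s = (s * t * (s * t) * (s * t)) * (t⁻¹ * s⁻¹ * t⁻¹) := by group
    _ = t * s * t := by rw [h, hi, hi', one_mul]

theorem twist_braid {s t : G} (hs : s * s = 1) (ht : t * t = 1) (h : (s * t) ^ 3 = 1) (x : G) :
    twist s (twist t (twist s x)) = twist t (twist s (twist t x)) := by
  have hi : s⁻¹ = s := inv_eq_of_mul_eq_one_right hs
  have hi' : t⁻¹ = t := inv_eq_of_mul_eq_one_right ht
  simp only [twist, mul_inv_rev, inv_inv, hi, hi']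
  calc _ = (s * t * s) * x⁻¹ * (s * t * s) := by group
    _ = _ := by rw [braid_of hs ht h]; group

theorem twist_comm {s t : G} (hs : s * s = 1) (ht : t * t = 1) (h : (s * t) ^ 2 = 1) (x : G) :
    twist s (twist t x) = twist t (twist s x) := by
  have hi : s⁻¹ = s := inv_eq_of_mul_eq_one_right hs
  have hi' : t⁻¹ = t := inv_eq_of_mul_eq_one_right ht
  have hc : s * t = t * s := by
    rw [pow_two] at h
    rw [eq_inv_of_mul_eq_one_right h, mul_inv_rev, hi, hi']
  simp only [twist, mul_inv_rev, inv_inv, hi, hi']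
  calc s * (t * (x * t)) * s = (s * t) * x * (t * s) := by group
    _ = (t * s) * x * (s * t) := by rw [hc]
    _ = _ := by group

theorem twist_fix {s e : G} (hs : s * s = 1) (h : (e * s) ^ 2 = 1) : twist s e = e := by
  have hi : s⁻¹ = s := inv_eq_of_mul_eq_one_right hs
  rw [pow_two] at h
  have h2 : e * s = s * e⁻¹ := by rw [eq_inv_of_mul_eq_one_right h, mul_inv_rev, hi]
  calc twist s e = (s * e⁻¹) * s := rfl
    _ = e * (s * s) := by rw [← h2, mul_assoc]
    _ = e := by rw [hs, mul_one]

/-- Moore's relations give a homomorphism from the alternating group of degree seven. -/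
theorem exists_hom {e v p q r : G} (he : e ^ 3 = 1) (hv : v * v = 1) (hp : p * p = 1) (hq : q * q = 1)
    (hr : r * r = 1) (hev : (e * v) ^ 3 = 1) (hep : (e * p) ^ 2 = 1) (heq : (e * q) ^ 2 = 1) (her : (e * r) ^ 2 = 1)
    (hvp : (v * p) ^ 3 = 1) (hvq : (v * q) ^ 2 = 1) (hvr : (v * r) ^ 2 = 1) (hpq : (p * q) ^ 3 = 1)
    (hqr : (q * r) ^ 3 = 1) (hpr : (p * r) ^ 2 = 1) :
    ∃ f : alternatingGroup (Fin 7) →* G, e ∈ f.range := by
  classical
  let A := twist v e
  let B := twist p A
  let C := twist q B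
  let D := twist r C
  have fp := twist_fix hp hep
  have fq := twist_fix hq heq
  have fr := twist_fix hr her
  have vB : twist v B = B := by
    show twist v (twist p (twist v e)) = twist p (twist v e)
    rw [twist_braid hv hp hvp, fp]
  have qA : twist q A = A := by
    show twist q (twist v e) = twist v e
    rw [← twist_comm hv hq hvq, fq]
  have rA : twist r A = A := by
    show twist r (twist v e) = twist v e
    rw [← twist_comm hv hr hvr, fr]
  have rB : twist r B = B := by
    show twist r (twist p A) = twist p A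
    rw [← twist_comm hp hr hpr, rA]
  have pC : twist p C = C := by
    show twist p (twist q (twist p A)) = twist q (twist p A)
    rw [twist_braid hp hq hpq, qA]
  have qD : twist q D = D := by
    show twist q (twist r (twist q B)) = twist r (twist q B)
    rw [twist_braid hq hr hqr, rB]
  have eA : (e * A) ^ 2 = 1 := by
    have hvi : v⁻¹ = v := inv_eq_of_mul_eq_one_right hv
    have h1 : e * v * e = v * e⁻¹ * v := by
      rw [pow_succ, pow_two] at hev
      calc e * v * e = (e * v * (e * v) * (e * v)) * (v⁻¹ * e⁻¹ * v⁻¹) := by group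
        _ = v * e⁻¹ * v := by rw [hev, one_mul, hvi]
    have h2 : e * A = e * (e * v * e) := by rw [h1]; simp [A, twist, mul_assoc]
    rw [h2, pow_two]
    calc e * (e * v * e) * (e * (e * v * e)) = e * e * v * e ^ 3 * v * e := by rw [pow_succ, pow_two]; group
      _ = e * e * (v * v) * e := by rw [he]; group
      _ = 1 := by rw [hv, mul_one, ← he, pow_succ, pow_two]
  have eB : (e * B) ^ 2 = 1 := by
    have := twist_rel hp eA; rwa [fp] at this
  have eC : (e * C) ^ 2 = 1 := by
    have := twist_rel hq eB; rwa [fq] at this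
  have eD : (e * D) ^ 2 = 1 := by
    have := twist_rel hr eC; rwa [fr] at this
  have AB : (A * B) ^ 2 = 1 := by
    have := twist_rel hv eB; rwa [vB] at this
  have AC : (A * C) ^ 2 = 1 := by
    have := twist_rel hq AB; rwa [qA] at this
  have AD : (A * D) ^ 2 = 1 := by
    have := twist_rel hr AC; rwa [rA] at this
  have BC : (B * C) ^ 2 = 1 := by
    have := twist_rel hp AC; rwa [pC] at this
  have BD : (B * D) ^ 2 = 1 := by
    have := twist_rel hr BC; rwa [rB] at this
  have CD : (C * D) ^ 2 = 1 := by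
    have := twist_rel hq BD; rwa [qD] at this
  have hA3 : A ^ 3 = 1 := twist_cube hv he
  have hB3 : B ^ 3 = 1 := twist_cube hp hA3
  have hC3 : C ^ 3 = 1 := twist_cube hq hB3
  have hD3 : D ^ 3 = 1 := twist_cube hr hC3
  have flip : ∀ {a b : G}, (a * b) ^ 2 = 1 → (b * a) ^ 2 = 1 := fun {a b} h => by
    rw [show (b * a) ^ 2 = b * (a * b) ^ 2 * b⁻¹ by rw [pow_two, pow_two]; group, h]; group
  let xs : Fin 7 → G := ![1, 1, e, A, B, C, D]
  let κ := {i : Fin 7 // (0 : Fin 7) ≠ i ∧ (1 : Fin 7) ≠ i}
  let Y : κ → G × alternatingGroup (Fin 7) := fun i => (xs i.1, ⟨FewRels.cyc 0 1 i.1, FewRels.cyc_mem i.2.1 (by decide)⟩)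
  let K : Subgroup (G × alternatingGroup (Fin 7)) := Subgroup.closure (Set.range Y)
  let π : K →* alternatingGroup (Fin 7) := (MonoidHom.snd G _).comp K.subtype
  let y : κ → K := fun i => ⟨Y i, Subgroup.subset_closure ⟨i, rfl⟩⟩
  have h3 : ∀ i, y i ^ 3 = 1 := by
    rintro ⟨i, hi⟩
    refine Subtype.ext (Prod.ext ?_ (Subtype.ext (FewRels.cyc_pow_three (by decide) hi.1 hi.2)))
    show xs i ^ 3 = 1
    fin_cases i <;> simp_all [xs]
  have h2 : ∀ i j, i ≠ j → (y i * y j) ^ 2 = 1 := by
    rintro ⟨i, hi⟩ ⟨j, hj⟩ hij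
    have hij' : i ≠ j := fun h => hij (Subtype.ext h)
    refine Subtype.ext (Prod.ext ?_ (Subtype.ext (FewRels.cyc_rel (by decide) hi.1 hi.2 hj.1 hj.2 hij')))
    show (xs i * xs j) ^ 2 = 1
    fin_cases i <;> fin_cases j <;>
      first
        | exact absurd rfl hij'
        | exact absurd rfl hi.1
        | exact absurd rfl hi.2
        | exact absurd rfl hj.1
        | exact absurd rfl hj.2
        | assumption
        | exact flip (by assumption)
  have hgen : Subgroup.closure (Set.range y) = ⊤ := by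
    apply Subgroup.map_injective K.subtype_injective
    rw [MonoidHom.map_closure, ← MonoidHom.range_eq_map, Subgroup.range_subtype, ← Set.range_comp]
    rfl
  have hinj : Function.Injective π :=
    FewRels.injective_of_carmichael (by decide : (0 : Fin 7) ≠ 1) π y (fun i => rfl) h3 h2 hgen
  have hsurj : Function.Surjective π := by
    intro g
    have hg : g.1 ∈ Subgroup.closure {g | ∃ i, (0 : Fin 7) ≠ i ∧ (1 : Fin 7) ≠ i ∧ g = FewRels.cyc 0 1 i} := by
      rw [FewRels.closure_cyc (by decide)]; exact g.2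
    have : g.1 ∈ ((alternatingGroup (Fin 7)).subtype.comp π).range := by
      refine (Subgroup.closure_le _).mpr ?_ hg
      rintro _ ⟨i, hi, hi', rfl⟩
      exact ⟨y ⟨i, hi, hi'⟩, rfl⟩
    obtain ⟨z, hz⟩ := this
    exact ⟨z, Subtype.ext hz⟩
  let E := MulEquiv.ofBijective π ⟨hinj, hsurj⟩
  refine ⟨((MonoidHom.fst G _).comp K.subtype).comp E.symm.toMonoidHom, π (y ⟨2, by decide, by decide⟩), ?_⟩
  show ((E.symm (π (y ⟨2, by decide, by decide⟩)) : K) : G × alternatingGroup (Fin 7)).1 = e
  rw [show π (y ⟨2, by decide, by decide⟩) = E (y ⟨2, by decide, by decide⟩) from rfl, MulEquiv.symm_apply_apply]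
  rfl

end CfsgLib.AltSevenRecog
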