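import Mathlib
import Cfsg.Agent.SmallOrders.Basic

/-!
Fixed points, incidences and conjugation actions for small simple groups.
-/

set_option autoImplicit false
set_option linter.style.haveILetI false

namespace CfsgLib.AltSevenRecog

variable {G : Type*} [Group G] [Finite G] {Ω : Type*} [MulAction G Ω]

/-- An involution of a simple group acts as an even permutation. -/
theorem fixed_mod_four [IsSimpleGroup G] (hG : ¬ IsMulCommutative G) [Finite Ω]
    (hne : ∃ (g : G) (a : Ω), g • a ≠ a) {y : G} (hy : orderOf y = 2) :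
    Nat.card {a : Ω // y • a = a} % 4 = Nat.card Ω % 4 ∧ Nat.card {a : Ω // y • a = a} < Nat.card Ω := by
  classical
  haveI := Fintype.ofFinite Ω
  set f := MulAction.toPermHom G Ω
  have hinj : Function.Injective f := by
    rw [← MonoidHom.ker_eq_bot_iff]
    refine (MonoidHom.normal_ker f).eq_bot_or_eq_top.resolve_right fun hk => ?_
    obtain ⟨g, a, h⟩ := hne
    exact h (congrArg (fun s : Equiv.Perm Ω => s a) (MonoidHom.mem_ker.1 (hk ▸ Subgroup.mem_top g)))
  have hsign : Equiv.Perm.sign (f y) = 1 := by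
    rcases (MonoidHom.normal_ker (Equiv.Perm.sign.comp f)).eq_bot_or_eq_top with e | e
    · exfalso
      apply hG
      have hi := (MonoidHom.ker_eq_bot_iff _).1 e
      exact ⟨⟨fun a b => hi (by rw [map_mul, map_mul, mul_comm])⟩⟩
    · exact MonoidHom.mem_ker.1 (e ▸ Subgroup.mem_top y : y ∈ (Equiv.Perm.sign.comp f).ker)
  have ho : orderOf (f y) = 2 := by rw [orderOf_injective f hinj, hy]
  obtain ⟨n, hn⟩ := Equiv.Perm.cycleType_prime_order (σ := f y) (by rw [ho]; exact Nat.prime_two)
  have hsum : (f y).support.card = 2 * (n + 1) := by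
    rw [← Equiv.Perm.sum_cycleType, hn, Multiset.sum_replicate, ho, smul_eq_mul, mul_comm]
  rw [Equiv.Perm.sign_of_cycleType, hn, Multiset.sum_replicate, Multiset.card_replicate, ho, smul_eq_mul,
    neg_one_pow_eq_one_iff_even (by decide)] at hsign
  obtain ⟨m, hm⟩ := hsign
  have hfix : Nat.card {a : Ω // y • a = a} = Nat.card Ω - (f y).support.card := by
    rw [Nat.card_eq_fintype_card, Fintype.card_subtype, Nat.card_eq_fintype_card, ← Finset.card_compl]
    congr 1
    ext a
    simp [f, MulAction.toPermHom, MulAction.toPerm]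
  have hle : (f y).support.card ≤ Nat.card Ω := by
    rw [Nat.card_eq_fintype_card]; exact Finset.card_le_univ _
  omega

/-- The fixed points of an element commuting with an element of prime order that fixes one point only. -/
theorem fixed_mod_prime [Finite Ω] {p : ℕ} [Fact p.Prime] {c y : G} (hc : orderOf c = p) (hcy : Commute c y)
    (a₀ : Ω) (hu : ∀ a : Ω, c • a = a ↔ a = a₀) : Nat.card {a : Ω // y • a = a} % p = 1 := by
  have hy0 : y • a₀ = a₀ := (hu _).1 (by rw [← mul_smul, hcy.eq, mul_smul, (hu a₀).2 rfl])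
  let act : MulAction (Subgroup.zpowers c) {a : Ω // y • a = a} :=
    { smul := fun g a => ⟨(g : G) • (a : Ω), by
        obtain ⟨i, hi⟩ := g.2
        change c ^ i = (g : G) at hi
        rw [← hi, ← mul_smul, ← (hcy.zpow_left i).eq, mul_smul, a.2]⟩
      one_smul := fun a => Subtype.ext (one_smul G (a : Ω))
      mul_smul := fun g h a => Subtype.ext (mul_smul (g : G) (h : G) (a : Ω)) }
  have hP : IsPGroup p (Subgroup.zpowers c) := IsPGroup.of_card (n := 1) (by rw [Nat.card_zpowers, hc, pow_one])
  have h := hP.card_modEq_card_fixedPoints {a : Ω // y • a = a}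
  have h1 : Nat.card (MulAction.fixedPoints (Subgroup.zpowers c) {a : Ω // y • a = a}) = 1 := by
    refine Nat.card_eq_one_iff_unique.2 ⟨⟨fun a b => Subtype.ext (Subtype.ext ?_)⟩, ⟨⟨⟨a₀, hy0⟩, ?_⟩⟩⟩
    · have ha : c • ((a : {a : Ω // y • a = a}) : Ω) = ((a : {a : Ω // y • a = a}) : Ω) :=
        congrArg Subtype.val (a.2 ⟨c, Subgroup.mem_zpowers c⟩)
      have hb : c • ((b : {a : Ω // y • a = a}) : Ω) = ((b : {a : Ω // y • a = a}) : Ω) :=
        congrArg Subtype.val (b.2 ⟨c, Subgroup.mem_zpowers c⟩)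
      rw [(hu _).1 ha, (hu _).1 hb]
    · intro g
      refine Subtype.ext ?_
      show (g : G) • a₀ = a₀
      obtain ⟨i, hi⟩ := g.2
      change c ^ i = (g : G) at hi
      rw [← hi]
      exact MulAction.mem_stabilizer_iff.1
        ((Subgroup.zpowers_le.2 (MulAction.mem_stabilizer_iff.2 ((hu a₀).2 rfl))) ⟨i, rfl⟩)
  rw [Nat.ModEq, h1, Nat.one_mod_eq_one.2 (Fact.out : p.Prime).one_lt.ne'] at h
  exact h

/-- Double counting for an invariant relation between two transitive actions. -/
theorem incidence {A B : Type*} [Finite A] [Finite B] [MulAction G A] [MulAction G B]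
    [MulAction.IsPretransitive G A] [MulAction.IsPretransitive G B] (R : A → B → Prop)
    (hR : ∀ (g : G) a b, R a b → R (g • a) (g • b)) (a₀ : A) (b₀ : B) :
    Nat.card A * Nat.card {b // R a₀ b} = Nat.card B * Nat.card {a // R a b₀} := by
  classical
  haveI := Fintype.ofFinite A
  haveI := Fintype.ofFinite B
  have hR' : ∀ (g : G) a b, R (g • a) (g • b) → R a b := fun g a b h => by
    simpa using hR g⁻¹ _ _ h
  have hA : ∀ a, Nat.card {b // R a b} = Nat.card {b // R a₀ b} := fun a => by
    obtain ⟨g, rfl⟩ := MulAction.exists_smul_eq G a₀ a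
    refine (Nat.card_congr ((MulAction.toPerm g).subtypeEquiv fun b => ⟨hR g a₀ b, hR' g a₀ b⟩)).symm
  have hB : ∀ b, Nat.card {a // R a b} = Nat.card {a // R a b₀} := fun b => by
    obtain ⟨g, rfl⟩ := MulAction.exists_smul_eq G b₀ b
    refine (Nat.card_congr ((MulAction.toPerm g).subtypeEquiv fun a => ⟨hR g a b₀, hR' g a b₀⟩)).symm
  let e : (Σ a, {b // R a b}) ≃ Σ b, {a // R a b} :=
    { toFun := fun z => ⟨z.2.1, z.1, z.2.2⟩
      invFun := fun z => ⟨z.2.1, z.1, z.2.2⟩
      left_inv := fun _ => rfl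
      right_inv := fun _ => rfl }
  have h := Nat.card_congr e
  simp only [Nat.card_sigma, hA, hB, Finset.sum_const, Finset.card_univ, smul_eq_mul] at h
  simpa [Nat.card_eq_fintype_card] using h

/-- An element of prime order in a normalised Sylow subgroup. -/
theorem mem_of_smul_eq {p : ℕ} [Fact p.Prime] {c : G} {k : ℕ} (hc : orderOf c = p ^ k) {Q : Sylow p G}
    (h : c • Q = Q) : c ∈ (Q : Subgroup G) :=
  (le_of_eq ((IsPGroup.of_card (n := k) (by rw [Nat.card_zpowers, hc])).inf_normalizer_sylow Q)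
    ⟨Subgroup.mem_zpowers c, Sylow.smul_eq_iff_mem_normalizer.1 h⟩).2

theorem mem_of_mem_normalizer {p : ℕ} [Fact p.Prime] {c : G} {k : ℕ} (hc : orderOf c = p ^ k) {Q : Sylow p G}
    (h : c ∈ Subgroup.normalizer ((Q : Subgroup G) : Set G)) : c ∈ (Q : Subgroup G) :=
  mem_of_smul_eq hc (Sylow.smul_eq_iff_mem_normalizer.2 h)

/-- A generator of a Sylow subgroup of prime order fixes one Sylow subgroup only. -/
theorem fixes_only {p : ℕ} [Fact p.Prime] (P : Sylow p G) (hP : Nat.card (P : Subgroup G) = p) {c : G}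
    (hc : orderOf c = p) (hcP : c ∈ (P : Subgroup G)) (Q : Sylow p G) : c • Q = Q ↔ Q = P := by
  refine ⟨fun h => ?_, fun h => h ▸ Sylow.smul_eq_iff_mem_normalizer.2 (Subgroup.le_normalizer hcP)⟩
  have hQ : Nat.card (Q : Subgroup G) = p := by
    rw [Q.card_eq_multiplicity, ← P.card_eq_multiplicity, hP]
  have h1 : ∀ R : Subgroup G, Nat.card R = p → c ∈ R → Subgroup.zpowers c = R := fun R hR hm =>
    Subgroup.eq_of_le_of_card_ge (Subgroup.zpowers_le.2 hm) (by rw [Nat.card_zpowers, hc, hR])
  exact Sylow.ext ((h1 _ hQ (mem_of_smul_eq (k := 1) (by rw [hc, pow_one]) h)).symm.trans (h1 _ hP hcP))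

/-- The involutions of a group. -/
abbrev Inv (G : Type*) [Group G] : Type _ := {t : G // orderOf t = 2}

instance : MulAction G (Inv G) where
  smul g t := ⟨MulAut.conj g t.1, by rw [MulEquiv.orderOf_eq]; exact t.2⟩
  one_smul t := Subtype.ext (by show MulAut.conj (1 : G) t.1 = t.1; simp)
  mul_smul g h t := Subtype.ext (by show MulAut.conj (g * h) t.1 = MulAut.conj g (MulAut.conj h t.1); simp)

omit [Finite G] in
theorem inv_smul_def (g : G) (t : Inv G) : ((g • t : Inv G) : G) = g * t.1 * g⁻¹ := rfl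

omit [Finite G] in
theorem smul_inv_eq_self_iff (g : G) (t : Inv G) : g • t = t ↔ Commute g t.1 := by
  rw [Subtype.ext_iff, inv_smul_def, mul_inv_eq_iff_eq_mul]; rfl

theorem card_inv {t : Inv G} [MulAction.IsPretransitive G (Inv G)] :
    Nat.card (Inv G) * Nat.card (Subgroup.centralizer ({t.1} : Set G)) = Nat.card G := by
  have h := MulAction.index_stabilizer_of_transitive G t
  have e : MulAction.stabilizer G t = Subgroup.centralizer ({t.1} : Set G) := by
    ext g
    rw [MulAction.mem_stabilizer_iff, smul_inv_eq_self_iff, Subgroup.mem_centralizer_singleton_iff]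
    rfl
  rw [e] at h
  rw [← h, Subgroup.index_mul_card]

/-- Conjugating a centraliser. -/
theorem commute_conj {a b : G} (g : G) (h : Commute a b) : Commute (g * a * g⁻¹) (g * b * g⁻¹) := by
  simpa using h.map (MulAut.conj g).toMonoidHom

end CfsgLib.AltSevenRecog
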